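import Cfsg.Agent.H72.Rl.Num
import Cfsg.Agent.H72.Rl.Orb
import Cfsg.Agent.H72.Rl.Lin
import Cfsg.Agent.S2601
import Cfsg.Agent.H548.Crit

/-!
# The residual case F-A of S3691 (helper72)

`res_a` : in an exact factorization of an almost simple group with socle `PSL_n(q)`, `n ≥ 3`, no factor fixes a point `⟨v⟩`,
induces at least `SL` on `V/⟨v⟩` and contains no transvection with centre `v`.
-/

set_option autoImplicit false
set_option linter.unusedSectionVars false

namespace Cfsg.Agent.H72.Rl

open Cfsg Cfsg.Geo Matrix Cfsg.Agent.H851.Rl Cfsg.Agent.H454.Reg Cfsg.Agent.H997.Rg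
open Cfsg.Agent.H304.PslT (pre pr toGL_injective range_toGL)
open scoped MatrixGroups

universe u

section

variable {n : ℕ} {F : Type} [Field F] [Fintype F]

theorem card_center_dvd : Nat.card (Subgroup.center (SpecialLinearGroup (Fin n) F)) ∣ Fintype.card F - 1 := by
  have h1 := Nat.card_congr (Matrix.SpecialLinearGroup.center_equiv_rootsOfUnity (n := Fin n) (R := F)).toEquiv
  rw [h1, ← Nat.card_eq_fintype_card (α := F), ← Nat.card_units F]
  exact Subgroup.card_subgroup_dvd_card _

theorem card_pre (M : Subgroup (Matrix.ProjectiveSpecialLinearGroup (Fin n) F)) :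
    Nat.card (pre M) = Nat.card M * Nat.card (Subgroup.center (SpecialLinearGroup (Fin n) F)) := by
  have hfin : Finite (SpecialLinearGroup (Fin n) F) := inferInstance
  have h0 : Nat.card (pre M) = Nat.card (M.comap (pr n F)) :=
    (Nat.card_congr ((M.comap (pr n F)).equivMapOfInjective _ toGL_injective).toEquiv).symm
  have hsurj : Function.Surjective (pr n F) := QuotientGroup.mk'_surjective _
  have h1 := (M.comap (pr n F)).card_mul_index
  have h2 := M.card_mul_index
  have h3 : (M.comap (pr n F)).index = M.index := Subgroup.index_comap_of_surjective _ hsurj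
  have h4 : Nat.card (SpecialLinearGroup (Fin n) F) =
      Nat.card (Matrix.ProjectiveSpecialLinearGroup (Fin n) F) * Nat.card (Subgroup.center (SpecialLinearGroup (Fin n) F)) :=
    Subgroup.card_eq_card_quotient_mul_card_subgroup _
  have h5 : 0 < M.index := Nat.pos_of_ne_zero Subgroup.index_ne_zero_of_finite
  apply Nat.eq_of_mul_eq_mul_right h5
  rw [h0]
  rw [h3] at h1
  rw [h1, h4, ← h2]
  ring

theorem card_sl_eq : Nat.card (specialLinear (Fin n) F) =
    Nat.card (Matrix.ProjectiveSpecialLinearGroup (Fin n) F) * Nat.card (Subgroup.center (SpecialLinearGroup (Fin n) F)) := by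
  rw [← range_toGL, Nat.card_congr (MonoidHom.ofInjective toGL_injective).symm.toEquiv]
  exact Subgroup.card_eq_card_quotient_mul_card_subgroup _

theorem card_psl_le : Nat.card (Matrix.ProjectiveSpecialLinearGroup (Fin n) F) ≤ Fintype.card F ^ (n ^ 2) := by
  have h1 : Nat.card (Matrix.ProjectiveSpecialLinearGroup (Fin n) F) ≤ Nat.card (SpecialLinearGroup (Fin n) F) :=
    Nat.card_le_card_of_surjective _ (QuotientGroup.mk'_surjective _)
  refine h1.trans ?_
  have h2 : Nat.card (SpecialLinearGroup (Fin n) F) ≤ Nat.card (Matrix (Fin n) (Fin n) F) :=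
    Nat.card_le_card_of_injective (fun g => g.1) Subtype.val_injective
  refine h2.trans ?_
  rw [Nat.card_eq_fintype_card]
  have : Fintype.card (Matrix (Fin n) (Fin n) F) = (Fintype.card F ^ n) ^ n := by
    show Fintype.card (Fin n → Fin n → F) = _
    rw [Fintype.card_fun, Fintype.card_fun, Fintype.card_fin]
  rw [this, ← pow_mul, pow_two]

theorem card_out {p f : ℕ} [Fact p.Prime] (hf : 1 ≤ f) (hF : Fintype.card F = p ^ f) (hn : 3 ≤ n) :
    Nat.card (Out (Matrix.ProjectiveSpecialLinearGroup (Fin n) F)) = Nat.gcd n (p ^ f - 1) * (2 * f) := by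
  obtain ⟨φ, h1, -, h2⟩ := Cfsg.Agent.S2601.result hf hF hn
  have h3 := Subgroup.card_mul_index φ.ker
  rw [h2, Subgroup.index_ker, MonoidHom.range_eq_top.2 h1, Subgroup.card_top] at h3
  rw [← h3]
  congr 1
  have h4 : Nat.card (Multiplicative (ZMod f × ZMod 2)) = Nat.card (ZMod f × ZMod 2) :=
    Nat.card_congr Multiplicative.toAdd
  rw [h4, Nat.card_prod, Nat.card_zmod, Nat.card_zmod, mul_comm]

end

section

variable {G : Type u} [Group G] [Finite G] {T : Subgroup G} {n : ℕ} {F : Type} [Field F] [Fintype F]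

theorem mem_pg {e : T ≃* Matrix.ProjectiveSpecialLinearGroup (Fin n) F} {X : Subgroup G} {x : GL (Fin n) F}
    (hx : x ∈ pg e X) : ∃ x1 : SpecialLinearGroup (Fin n) F, SpecialLinearGroup.toGL x1 = x ∧
      ∃ τ : T, (τ : G) ∈ X ∧ e τ = pr n F x1 := by
  obtain ⟨x1, hx1, rfl⟩ := hx
  obtain ⟨τ, hτ, hτe⟩ := hx1
  exact ⟨x1, rfl, τ, hτ, hτe⟩

theorem card_pg (e : T ≃* Matrix.ProjectiveSpecialLinearGroup (Fin n) F) (X : Subgroup G) :
    Nat.card (pg e X) = Nat.card (X.subgroupOf T) * Nat.card (Subgroup.center (SpecialLinearGroup (Fin n) F)) := by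
  rw [pg, card_pre]
  congr 1
  exact (Nat.card_congr ((X.subgroupOf T).equivMapOfInjective _ e.injective).toEquiv).symm

/-- no element of `pg X` with a fixed vector is conjugate to an element of `pg Y` -/
theorem eq_one_of_conj {X Y : Subgroup G} (h : Fac T X Y) {e : T ≃* Matrix.ProjectiveSpecialLinearGroup (Fin n) F}
    {x y t : GL (Fin n) F} (hx : x ∈ pg e X) (hy : y ∈ pg e Y) (ht : t ∈ specialLinear (Fin n) F)
    (hxy : t * x * t⁻¹ = y) {w : Fin n → F} (hw : w ≠ 0) (hxw : (x : Matrix (Fin n) (Fin n) F) *ᵥ w = w) : x = 1 := by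
  obtain ⟨x1, rfl, τx, hτx, hex⟩ := mem_pg hx
  obtain ⟨y1, rfl, τy, hτy, hey⟩ := mem_pg hy
  rw [← range_toGL] at ht
  obtain ⟨t1, rfl⟩ := ht
  have h1 : t1 * x1 * t1⁻¹ = y1 := by
    apply toGL_injective
    rw [map_mul, map_mul, map_inv]
    exact hxy
  obtain ⟨τt, hτt⟩ := e.surjective (pr n F t1)
  have h2 : τt * τx * τt⁻¹ = τy := by
    apply e.injective
    rw [map_mul, map_mul, map_inv, hτt, hex, hey, ← h1, map_mul, map_mul, map_inv]
  have h3 : (τx : G) = 1 := by
    refine h.not_conj hτx (τt : G) ?_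
    have h4 : (τt : G) * τx * (τt : G)⁻¹ = τy := congrArg Subtype.val h2
    rw [h4]
    exact hτy
  have h4 : τx = 1 := Subtype.ext h3
  rw [h4, map_one] at hex
  have h5 : x1 ∈ Subgroup.center (SpecialLinearGroup (Fin n) F) := (QuotientGroup.eq_one_iff x1).1 hex.symm
  rw [Matrix.SpecialLinearGroup.mem_center_iff] at h5
  obtain ⟨r, -, hr⟩ := h5
  have h6 : r = 1 := by
    have h7 : (x1 : Matrix (Fin n) (Fin n) F) *ᵥ w = w := hxw
    rw [← hr, Matrix.scalar_apply, ← Matrix.smul_one_eq_diagonal, smul_mulVec, one_mulVec] at h7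
    have h8 : (r - 1) • w = 0 := by rw [sub_smul, one_smul, h7, sub_self]
    exact sub_eq_zero.1 ((smul_eq_zero.1 h8).resolve_right hw)
  have h7 : x1 = 1 := by
    apply Subtype.ext
    rw [← hr, h6, map_one]
    rfl
  rw [h7, map_one]

/-- **PSL-7** -/
theorem res_a (hJ : OutJ1.{0}) {X Y : Subgroup G} (h : Fac T X Y) (hn : 3 ≤ n)
    (e : T ≃* Matrix.ProjectiveSpecialLinearGroup (Fin n) F) {v : Fin n → F} (hY : Pt (pg e Y) v) (hU : NoU (pg e Y) v) :
    False := by
  classical
  obtain ⟨p, hpc⟩ := CharP.exists F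
  have hp : p.Prime := CharP.char_is_prime F p
  have := Fact.mk hp
  obtain ⟨⟨f, hf⟩, -, hF⟩ := FiniteField.card F p
  change Fintype.card F = p ^ f at hF
  have hf1 : 1 ≤ f := hf
  have hfinGL : Finite (GL (Fin n) F) := inferInstance
  -- sizes
  have hsize : 3 * Nat.factorial 29 < (p ^ f) ^ (n ^ 2) := by
    rw [← hF]
    refine h.large.trans_le ?_
    rw [Nat.card_congr e.toEquiv]
    exact card_psl_le
  have hq : Fintype.card F = p ^ f := hF
  have hq1 : 1 < Fintype.card F := Fintype.one_lt_card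
  -- the order equation
  obtain ⟨e0, -, he0, hcard⟩ := h.card0
  obtain ⟨k, hk, hkY⟩ := card_eq hY
  have hVS := card_vstab hY hU
  have hSL := card_sl (F := F) (n := n) (by omega) hY.ne
  set Z := Nat.card (Subgroup.center (SpecialLinearGroup (Fin n) F)) with hZ
  have hZd : Z ∣ Fintype.card F - 1 := card_center_dvd
  have hZ0 : 0 < Z := Nat.card_pos
  have hRZ : 0 < Nat.card (RZ (pg e Y) v) := Nat.card_pos
  have hEq : Nat.card (pg e X) * k * e0 = (Fintype.card F ^ n - 1) * Fintype.card F ^ (n - 1) * Z := by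
    apply Nat.eq_of_mul_eq_mul_right hRZ
    have h1 : Nat.card (pg e X) * Nat.card (pg e Y) * e0 = Nat.card (specialLinear (Fin n) F) * Z := by
      rw [card_pg, card_pg, card_sl_eq, ← Nat.card_congr e.toEquiv, ← hcard]
      ring
    rw [hkY, hSL, hVS] at h1
    calc Nat.card (pg e X) * k * e0 * Nat.card (RZ (pg e Y) v)
        = Nat.card (pg e X) * (Nat.card (RZ (pg e Y) v) * k) * e0 := by ring
      _ = _ := by rw [h1]; ring
  have hOut : Nat.card (Out T) = Nat.gcd n (p ^ f - 1) * (2 * f) := by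
    rw [Cfsg.Agent.H548.Crit.card_out_congr e, card_out hf1 hF hn]
  rw [hOut] at he0
  have hX0 : Nat.card (pg e X) ≠ 0 := Nat.card_pos.ne'
  have hk0 : k ≠ 0 := by
    rintro rfl
    rw [mul_zero] at hkY
    exact Nat.card_pos.ne' hkY
  have he00 : e0 ≠ 0 := by
    rintro rfl
    rw [mul_zero] at hcard
    exact Nat.card_pos.ne hcard
  have hcop : ∀ m, 0 < m → ¬ p ∣ Fintype.card F ^ m - 1 := by
    intro m hm hd
    rw [hq, ← pow_mul] at hd
    have h1 := coprime_pow_sub_one hp (b := f * m) (by positivity)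
    exact (Nat.Prime.coprime_iff_not_dvd hp).1 h1 hd
  have hcop1 : ∀ d, d ∣ Fintype.card F - 1 → ¬ p ∣ d := fun d hd hpd =>
    hcop 1 one_pos (by rw [pow_one]; exact hpd.trans hd)
  have hgcd0 : Nat.gcd n (p ^ f - 1) ≠ 0 := (Nat.gcd_pos_of_pos_left _ (by omega)).ne'
  have hqn : Fintype.card F ^ n - 1 ≠ 0 := by
    have : 1 < Fintype.card F ^ n := Nat.one_lt_pow (by omega) hq1
    omega
  -- `p`-parts
  have hvp : (Nat.card (pg e X)).factorization p + e0.factorization p = f * (n - 1) := by
    have h1 : (Nat.card (pg e X) * k * e0).factorization p =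
        ((Fintype.card F ^ n - 1) * Fintype.card F ^ (n - 1) * Z).factorization p := by rw [hEq]
    rw [Nat.factorization_mul (mul_ne_zero hX0 hk0) he00, Nat.factorization_mul hX0 hk0,
      Nat.factorization_mul (mul_ne_zero hqn (pow_ne_zero _ (by omega))) hZ0.ne',
      Nat.factorization_mul hqn (pow_ne_zero _ (by omega))] at h1
    simp only [Finsupp.add_apply] at h1
    rw [Nat.factorization_eq_zero_of_not_dvd (hcop1 k hk), Nat.factorization_eq_zero_of_not_dvd (hcop n (by omega)),
      Nat.factorization_eq_zero_of_not_dvd (hcop1 Z hZd), hq, ← pow_mul, Nat.Prime.factorization_pow hp,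
      Finsupp.single_eq_same] at h1
    omega
  have hep : e0.factorization p ≤ (2 * f).factorization p := by
    have h1 := (Nat.factorization_le_iff_dvd he00 (mul_ne_zero hgcd0 (by omega))).2 he0 p
    rw [Nat.factorization_mul hgcd0 (by omega), Finsupp.add_apply, Nat.factorization_eq_zero_of_not_dvd (n := Nat.gcd n (p ^ f - 1))
      (hcop1 _ (by rw [hq]; exact Nat.gcd_dvd_right _ _)), zero_add] at h1
    exact h1
  -- the primitive prime divisor
  have hfn3 : 3 ≤ f * n := by nlinarith
  obtain ⟨r, hr, hrd, hrm, hrp⟩ := Cfsg.Agent.Lib.Zsigmondy.exists_primitive (a := p) (n := f * n) hp.two_le (by omega)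
    (by omega) (by
      rintro ⟨rfl, h6⟩
      have h1 := two_size hsize
      have h2 : f * n ^ 2 = 6 * n := by rw [pow_two, ← mul_assoc, h6]
      have h3 : n ≤ 6 := by
        rw [← h6]
        exact Nat.le_mul_of_pos_left n hf1
      omega)
  have hr1 : f * n < r := by
    have h1 := Nat.le_of_dvd (by have := hr.two_le; omega) hrm
    have := hr.two_le
    omega
  have hr5 : 5 ≤ r := by
    have h1 : r ≠ 4 := by
      rintro rfl
      exact absurd hr (by norm_num)
    omega
  have hrp' : r ≠ p := by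
    rintro rfl
    exact hrp dvd_rfl
  have hrq : ∀ m, r ∣ Fintype.card F ^ m - 1 ↔ n ∣ m := by
    intro m
    rw [hq, ← pow_mul, hrd]
    exact Nat.mul_dvd_mul_iff_left (by omega)
  have hrq1 : ∀ d, d ∣ Fintype.card F - 1 → ¬ r ∣ d := by
    intro d hd hrd'
    have h1 := (hrq 1).1 (by rw [pow_one]; exact hrd'.trans hd)
    have := Nat.le_of_dvd one_pos h1
    omega
  have hrX : r ∣ Nat.card (pg e X) := by
    have h1 : r ∣ Nat.card (pg e X) * k * e0 := by
      rw [hEq]
      exact (((hrq n).2 dvd_rfl).mul_right _).mul_right _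
    rcases hr.dvd_mul.1 h1 with h1 | h1
    · rcases hr.dvd_mul.1 h1 with h1 | h1
      · exact h1
      · exact absurd h1 (hrq1 k hk)
    · exfalso
      have h2 := h1.trans he0
      rcases hr.dvd_mul.1 h2 with h2 | h2
      · exact hrq1 _ (by rw [hq]; exact Nat.gcd_dvd_right _ _) h2
      · rcases hr.dvd_mul.1 h2 with h2 | h2
        · have := Nat.le_of_dvd two_pos h2
          omega
        · have h3 := Nat.le_of_dvd (by omega) h2
          have : f ≤ f * n := Nat.le_mul_of_pos_right f (by omega)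
          omega
  have := Fact.mk hr
  obtain ⟨y, hy⟩ := exists_prime_orderOf_dvd_card' (G := pg e X) r hrX
  -- the linear action
  let ρ : pg e X →* Module.End F (Fin n → F) :=
    ((Matrix.toLinAlgEquiv' : Matrix (Fin n) (Fin n) F ≃ₐ[F] _).toMonoidHom.comp (Units.coeHom _)).comp (pg e X).subtype
  have hρ : ∀ (g : pg e X) (w : Fin n → F), ρ g w = ((g : GL (Fin n) F) : Matrix (Fin n) (Fin n) F) *ᵥ w :=
    fun g w => rfl
  have hinj : Function.Injective ρ := by
    intro g g' hgg
    apply Subtype.ext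
    refine gl_ext fun w => ?_
    rw [← hρ, ← hρ, hgg]
  have hnt : Nontrivial (Fin n → F) := by
    have : Nonempty (Fin n) := ⟨⟨0, by omega⟩⟩
    infer_instance
  have hfpf : Fpf p ρ := by
    intro g hg hgp w hw
    by_contra hw0
    rw [hρ] at hw
    have hs : ((orderOf g : ℕ) : F) ≠ 0 := by
      intro h0
      rw [CharP.cast_eq_zero_iff F p] at h0
      exact hgp ((Nat.prime_dvd_prime_iff_eq hp hg).1 h0).symm
    have hgS : (g : GL (Fin n) F) ∈ specialLinear (Fin n) F :=
      Cfsg.Agent.H304.PslT.mem_specialLinear_of_mem_pre g.2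
    have hpow : (g : GL (Fin n) F) ^ orderOf g = 1 := by
      rw [← Subgroup.coe_pow, pow_orderOf_eq_one, Subgroup.coe_one]
    obtain ⟨y', hy', t, ht, hty⟩ := conj_of (by omega) hY hU hgS hs hpow hw0 hw
    have h1 := eq_one_of_conj h g.2 hy' ht hty hw0 hw
    have h2 : g = 1 := Subtype.ext h1
    rw [h2, orderOf_one] at hg
    exact Nat.not_prime_one hg
  have hfr : Module.finrank F (Fin n → F) = n := Module.finrank_fin_fun F
  have hnum := num_of (ρ := ρ) hJ hp hinj hfpf hr hr5 hrp' hy (by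
    intro m
    rw [hfr, Nat.card_eq_fintype_card]
    exact hrq m) (by
    have : f * (n - 1) ≤ f * n := Nat.mul_le_mul_left f (by omega)
    omega)
  rw [hfr] at hnum
  have hM := compl_dvd (ρ := ρ) hp hfpf
  have hcV : Nat.card (Fin n → F) = (p ^ f) ^ n := by
    rw [Nat.card_eq_fintype_card, Fintype.card_fun, Fintype.card_fin, hq]
  rw [hcV] at hM
  exact num_false hp hf1 hn (Nat.ordProj_dvd (2 * f) p) (Nat.ordProj_dvd n p) (by omega)
    (Nat.ordCompl_pos p hX0).ne' hM hsize hnum

end

end Cfsg.Agent.H72.Rl
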